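import Cfsg.Prelude.Def_Transfer
import Cfsg.Agent.H91.OddOnTwo.AutCard

/-!
The subgroup `[M, x]` moved by an element acting on a normal elementary abelian `2`-subgroup.
-/

set_option autoImplicit false

namespace Cfsg.Agent.H91.OddOnTwo

open Subgroup
open scoped commutatorElement

variable {S : Type*} [Group S] (M : Subgroup S)

/-- The commutator of `x` with `M`, as a subgroup. -/
def disp (x : S) : Subgroup S := closure ((fun m => ⁅x, m⁆) '' (M : Set S))

variable {M}

theorem commutator_mem_disp (x : S) {m : S} (hm : m ∈ M) : ⁅x, m⁆ ∈ disp M x :=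
  subset_closure ⟨m, hm, rfl⟩

theorem disp_le_iff {x : S} {K : Subgroup S} : disp M x ≤ K ↔ ∀ m ∈ M, ⁅x, m⁆ ∈ K := by
  rw [disp, closure_le]
  exact Set.image_subset_iff

theorem commutator_mem [hMn : M.Normal] (x : S) {m : S} (hm : m ∈ M) : ⁅x, m⁆ ∈ M := by
  rw [commutatorElement_def]
  exact mul_mem (hMn.conj_mem m hm x) (inv_mem hm)

theorem disp_le [M.Normal] (x : S) : disp M x ≤ M := disp_le_iff.2 fun _ hm => commutator_mem x hm

/-- The elements moving `M` inside `V`. -/
def stab (M V : Subgroup S) [hMn : M.Normal] : Subgroup S where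
  carrier := {x | ∀ m ∈ M, ⁅x, m⁆ ∈ V}
  one_mem' m _ := by rw [commutatorElement_one_left]; exact one_mem V
  mul_mem' {x y} hx hy m hm := by
    have e : ⁅x * y, m⁆ = ⁅x, y * m * y⁻¹⁆ * ⁅y, m⁆ := by
      simp only [commutatorElement_def]; group
    rw [e]
    exact mul_mem (hx _ (hMn.conj_mem m hm y)) (hy m hm)
  inv_mem' {x} hx m hm := by
    have e : ⁅x⁻¹, m⁆ = (⁅x, x⁻¹ * m * x⁆)⁻¹ := by
      simp only [commutatorElement_def]; group
    rw [e]
    exact inv_mem (hx _ (by simpa using hMn.conj_mem m hm x⁻¹))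

theorem mem_stab_iff [M.Normal] {x : S} {V : Subgroup S} : x ∈ stab M V ↔ disp M x ≤ V :=
  disp_le_iff.symm

theorem mem_stab_disp [M.Normal] (x : S) : x ∈ stab M (disp M x) := mem_stab_iff.2 le_rfl

theorem disp_le_of_mem_zpowers [M.Normal] {x y : S} (h : y ∈ zpowers x) : disp M y ≤ disp M x :=
  mem_stab_iff.1 ((zpowers_le.2 (mem_stab_disp x)) h)

theorem stab_le_normalizer [hMn : M.Normal] {V : Subgroup S} (hV : V ≤ M) :
    stab M V ≤ normalizer (V : Set S) := by
  intro x hx
  rw [mem_normalizer_iff]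
  have h : ∀ z ∈ stab M V, ∀ y ∈ V, z * y * z⁻¹ ∈ V := fun z hz y hy => by
    have e : z * y * z⁻¹ = ⁅z, y⁆ * y := by simp only [commutatorElement_def]; group
    rw [e]
    exact mul_mem (hz y (hV hy)) hy
  refine fun y => ⟨h x hx y, fun hy => ?_⟩
  have := h x⁻¹ (inv_mem hx) _ hy
  simpa [mul_assoc] using this

theorem mem_normalizer_disp [M.Normal] (x : S) : x ∈ normalizer (disp M x : Set S) :=
  stab_le_normalizer (disp_le x) (mem_stab_disp x)

theorem disp_conj [hMn : M.Normal] (g x : S) :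
    disp M (g * x * g⁻¹) = (disp M x).map (MulAut.conj g).toMonoidHom := by
  apply le_antisymm
  · rw [disp_le_iff]
    intro m hm
    refine ⟨⁅x, g⁻¹ * m * g⁆, commutator_mem_disp x (by simpa using hMn.conj_mem m hm g⁻¹), ?_⟩
    show g * ⁅x, g⁻¹ * m * g⁆ * g⁻¹ = _
    simp only [commutatorElement_def]; group
  · rw [map_le_iff_le_comap, disp_le_iff]
    intro m hm
    show g * ⁅x, m⁆ * g⁻¹ ∈ disp M (g * x * g⁻¹)
    have e : g * ⁅x, m⁆ * g⁻¹ = ⁅g * x * g⁻¹, g * m * g⁻¹⁆ := by
      simp only [commutatorElement_def]; group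
    rw [e]
    exact commutator_mem_disp _ (hMn.conj_mem m hm g)

theorem card_disp_conj [M.Normal] (g x : S) :
    Nat.card (disp M (g * x * g⁻¹)) = Nat.card (disp M x) := by
  rw [disp_conj]
  exact card_map_of_injective (MulAut.conj g).injective

theorem mem_centralizer_of_disp_eq_bot {x : S} (h : disp M x = ⊥) : x ∈ centralizer (M : Set S) :=
  mem_centralizer_iff.2 fun m hm => by
    have := h.le (commutator_mem_disp x hm)
    rw [mem_bot, commutatorElement_eq_one_iff_mul_comm] at this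
    exact this.symm

/-- The quotient map by the centraliser of `M`. -/
abbrev modC (M : Subgroup S) [M.Normal] : S →* S ⧸ centralizer (M : Set S) :=
  QuotientGroup.mk' (centralizer (M : Set S))

theorem disp_eq_of_modC [hMn : M.Normal] {x y : S} (h : modC M x = modC M y) :
    disp M x = disp M y := by
  have key : ∀ {a b : S}, modC M a = modC M b → disp M a ≤ disp M b := by
    intro a b hab
    rw [disp_le_iff]
    intro m hm
    have hc : b⁻¹ * a ∈ centralizer (M : Set S) := QuotientGroup.eq.1 hab.symm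
    have hcm := mem_centralizer_iff.1 hc m hm
    have e : ⁅a, m⁆ = ⁅b, m⁆ := by
      simp only [commutatorElement_def]
      calc a * m * a⁻¹ * m⁻¹ = b * ((b⁻¹ * a) * m) * (b⁻¹ * a)⁻¹ * b⁻¹ * m⁻¹ := by group
        _ = b * (m * (b⁻¹ * a)) * (b⁻¹ * a)⁻¹ * b⁻¹ * m⁻¹ := by rw [hcm]
        _ = b * m * b⁻¹ * m⁻¹ := by group
    rw [e]
    exact commutator_mem_disp b hm
  exact le_antisymm (key h) (key h.symm)

/-- An element acting with odd order fixes no nontrivial commutator. -/
theorem eq_one_of_fixed (hM : Cfsg.IsElementaryAbelian 2 M) [hMn : M.Normal] {x m : S} (hm : m ∈ M)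
    {n : ℕ} (hn : Odd n) (hxn : x ^ n ∈ centralizer (M : Set S)) (hfix : Commute x ⁅x, m⁆) :
    ⁅x, m⁆ = 1 := by
  set u := ⁅x, m⁆ with hu
  have hconj : x * m * x⁻¹ = u * m := by rw [hu, commutatorElement_def]; group
  have hk : ∀ k : ℕ, x ^ k * m * (x ^ k)⁻¹ = u ^ k * m := by
    intro k
    induction k with
    | zero => simp
    | succ k ih =>
      calc x ^ (k + 1) * m * (x ^ (k + 1))⁻¹ = x * (x ^ k * m * (x ^ k)⁻¹) * x⁻¹ := by
            rw [pow_succ']; group
        _ = (x * u ^ k) * m * x⁻¹ := by rw [ih]; group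
        _ = (u ^ k * x) * m * x⁻¹ := by rw [(hfix.pow_right k).eq]
        _ = u ^ k * (x * m * x⁻¹) := by group
        _ = u ^ (k + 1) * m := by rw [hconj, pow_succ]; group
  have h1 : u ^ n = 1 := by
    have := hk n
    rw [← mem_centralizer_iff.1 hxn m hm, mul_inv_cancel_right] at this
    exact mul_eq_right.1 this.symm
  have h2 : u ^ 2 = 1 := hM.2 u (commutator_mem x hm)
  rw [← orderOf_eq_one_iff]
  exact Nat.Coprime.eq_one_of_dvd
    ((hn.coprime_two_right).coprime_dvd_left (orderOf_dvd_of_pow_eq_one h1))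
    (orderOf_dvd_of_pow_eq_one h2)

/-- Acting trivially on a subgroup containing `[M, x]` forces acting trivially on `M`. -/
theorem mem_centralizer_of_trivial (hM : Cfsg.IsElementaryAbelian 2 M) [M.Normal] {V : Subgroup S}
    {x : S} (hx : x ∈ stab M V) (hV : ∀ v ∈ V, Commute x v) {n : ℕ} (hn : Odd n)
    (hxn : x ^ n ∈ centralizer (M : Set S)) : x ∈ centralizer (M : Set S) := by
  refine mem_centralizer_of_disp_eq_bot (le_bot_iff.1 (disp_le_iff.2 fun m hm => ?_))
  exact mem_bot.2 (eq_one_of_fixed hM hm hn hxn (hV _ (hx m hm)))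

/-- The action of `stab M V` on `V`. -/
noncomputable def act [M.Normal] {V : Subgroup S} (hV : V ≤ M) : ↥(stab M V) →* MulAut ↥V :=
  V.normalizerMonoidHom.comp (inclusion (stab_le_normalizer hV))

theorem act_apply [M.Normal] {V : Subgroup S} (hV : V ≤ M) (x : stab M V) (v : V) :
    ((act hV x v : V) : S) = x * v * (x : S)⁻¹ := rfl

theorem commute_of_act_eq_one [M.Normal] {V : Subgroup S} (hV : V ≤ M) {x : stab M V}
    (h : act hV x = 1) : ∀ v ∈ V, Commute (x : S) v := by
  intro v hv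
  have := congrArg Subtype.val (DFunLike.congr_fun h ⟨v, hv⟩)
  rw [act_apply] at this
  exact mul_inv_eq_iff_eq_mul.1 this

/-- Odd order subgroups of `stab M V` with commuting images on `V` commute modulo `C(M)`. -/
theorem modC_commute_of_act (hM : Cfsg.IsElementaryAbelian 2 M) [M.Normal] {V H : Subgroup S}
    (hV : V ≤ M) (hH : Odd (Nat.card H)) [Finite S] {a b : S} (ha : a ∈ H) (hb : b ∈ H)
    (hav : a ∈ stab M V) (hbv : b ∈ stab M V)
    (hab : Commute (act hV ⟨a, hav⟩) (act hV ⟨b, hbv⟩)) : Commute (modC M a) (modC M b) := by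
  have hc : (⁅(⟨a, hav⟩ : stab M V), ⟨b, hbv⟩⁆ : stab M V) ∈ (act hV).ker := by
    rw [MonoidHom.mem_ker, map_commutatorElement, commutatorElement_eq_one_iff_mul_comm]
    exact hab
  have hcH : ⁅a, b⁆ ∈ H := by
    rw [commutatorElement_def]
    exact mul_mem (mul_mem (mul_mem ha hb) (inv_mem ha)) (inv_mem hb)
  have hn : Odd (orderOf ⁅a, b⁆) := hH.of_dvd_nat (orderOf_dvd_natCard H hcH)
  have hmem : ⁅a, b⁆ ∈ centralizer (M : Set S) :=
    mem_centralizer_of_trivial hM (V := V) (⁅(⟨a, hav⟩ : stab M V), ⟨b, hbv⟩⁆ : stab M V).2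
      (commute_of_act_eq_one hV (MonoidHom.mem_ker.1 hc)) hn
      (by rw [pow_orderOf_eq_one]; exact one_mem _)
  show modC M a * modC M b = modC M b * modC M a
  rw [← commutatorElement_eq_one_iff_mul_comm, ← map_commutatorElement]
  exact (QuotientGroup.eq_one_iff _).2 hmem

/-- The order of the automorphism group of a subgroup of `M`. -/
theorem card_mulAut_sub (hM : Cfsg.IsElementaryAbelian 2 M) [Finite S] {V : Subgroup S} (hV : V ≤ M) :
    ∃ n, Nat.card V = 2 ^ n ∧ Nat.card (MulAut V) ∣ ∏ i : Fin n, (2 ^ n - 2 ^ (i : ℕ)) := by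
  have h2 : ∀ v : V, v ^ 2 = 1 := fun v => Subtype.ext (hM.2 v (hV v.2))
  haveI := hM.1
  letI : CommGroup V :=
    { (inferInstance : Group V) with
      mul_comm := fun a b => Subtype.ext (setLike_mul_comm (hV a.2) (hV b.2)) }
  obtain ⟨n, hn⟩ := (show IsPGroup 2 V from fun v => ⟨1, by rw [pow_one]; exact h2 v⟩).exists_card_eq
  exact ⟨n, hn, card_mulAut_dvd h2 hn⟩

theorem card_sup_le [M.Normal] (hM : Cfsg.IsElementaryAbelian 2 M) [Finite S] {U U' : Subgroup S}
    (hU : U ≤ M) (hU' : U' ≤ M) :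
    Nat.card (U ⊔ U' : Subgroup S) ∣ Nat.card U * Nat.card U' := by
  have hn : U' ≤ normalizer (U : Set S) := fun x hx => mem_normalizer_iff.2 fun y => by
    haveI := hM.1
    constructor
    · intro hy
      rwa [setLike_mul_comm (hU' hx) (hU hy), mul_inv_cancel_right]
    · intro hy
      have h2 : x⁻¹ * (x * y * x⁻¹) = (x * y * x⁻¹) * x⁻¹ :=
        setLike_mul_comm (inv_mem (hU' hx)) (hU hy)
      have : y = x * y * x⁻¹ := by
        calc y = x⁻¹ * (x * y * x⁻¹) * x := by group
          _ = _ := by rw [h2, inv_mul_cancel_right]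
      rwa [this]
  have h := relIndex_mul_relIndex ⊥ U (U ⊔ U') bot_le le_sup_left
  rw [relIndex_bot_left, relIndex_bot_left] at h
  rw [← h]
  refine Nat.mul_dvd_mul_left _ ?_
  have hUn : (U.subgroupOf (U ⊔ U')).Normal :=
    normal_subgroupOf_iff_le_normalizer le_sup_left |>.2 (sup_le le_normalizer hn)
  have : U.relIndex (U ⊔ U') = (U.subgroupOf (U ⊔ U')).relIndex (U'.subgroupOf (U ⊔ U')) := by
    rw [← relIndex_sup_left (H := U'.subgroupOf (U ⊔ U')), ← subgroupOf_sup le_sup_left le_sup_right, subgroupOf_self,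
      relIndex_top_right]
    rfl
  rw [this]
  exact (relIndex_dvd_card _ _).trans
    (Nat.card_congr (subgroupOfEquivOfLe le_sup_right).toEquiv).dvd

end Cfsg.Agent.H91.OddOnTwo
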