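import Cfsg.Agent.H91.OddOnTwo.Tools
import Cfsg.Agent.H19.Hall

/-!
An elementary abelian subgroup of rank three with a noncyclic part centralising a moved four-group.
-/

set_option autoImplicit false

namespace Cfsg.Agent.H91.OddOnTwo

open Subgroup
open scoped commutatorElement Pointwise

variable {S : Type*} [Group S] [Finite S] {M : Subgroup S} [hMn : M.Normal]

omit hMn in
/-- Two facts about odd numbers dividing orders of linear groups. -/
theorem dvd_odd_part {a n : ℕ} (hn : n ≤ 6) (ha : Odd a)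
    (h : a ∣ ∏ i : Fin n, (2 ^ n - 2 ^ (i : ℕ))) :
    a ∣ 3 ^ 4 * (5 * (7 ^ 2 * 31)) ∧ (n ≤ 4 → a ∣ 315) := by
  have hco : a.Coprime (2 ^ 15) := ha.coprime_two_right.pow_right 15
  refine ⟨hco.dvd_of_dvd_mul_left (h.trans ?_), fun hn4 => hco.dvd_of_dvd_mul_left (h.trans ?_)⟩
  · interval_cases n <;> norm_num [Fin.prod_univ_succ]
  · interval_cases n <;> norm_num [Fin.prod_univ_succ]

omit hMn in
/-- A `p`-element normalising `U ≤ M` with `p` prime to `|Aut U|` centralises it. -/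
theorem mem_centralizer_of_prime (hM : Cfsg.IsElementaryAbelian 2 M) {U : Subgroup S} (hU : U ≤ M)
    {p d : ℕ} [Fact p.Prime] (hd : Nat.card U = 2 ^ d)
    (hp : ¬ p ∣ ∏ i : Fin d, (2 ^ d - 2 ^ (i : ℕ))) {e : S} (hep : e ^ p = 1)
    (heU : e ∈ normalizer (U : Set S)) : e ∈ centralizer (U : Set S) := by
  obtain ⟨n, hn, hnd⟩ := card_mulAut_sub hM hU
  obtain rfl : n = d := Nat.pow_right_injective le_rfl (hn.symm.trans hd)
  set ψ := U.normalizerMonoidHom ⟨e, heU⟩ with hψ
  have h1 : ψ ^ p = 1 := by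
    rw [hψ, ← map_pow, show (⟨e, heU⟩ : normalizer (U : Set S)) ^ p = 1 from Subtype.ext hep, map_one]
  have h2 : ψ = 1 := by
    rw [← orderOf_eq_one_iff]
    rcases (Nat.dvd_prime Fact.out).1 (orderOf_dvd_of_pow_eq_one h1) with h | h
    · exact h
    · exact absurd (h ▸ (orderOf_dvd_natCard ψ).trans hnd) hp
  refine mem_centralizer_iff.2 fun u hu => ?_
  have := congrArg Subtype.val (DFunLike.congr_fun h2 ⟨u, hu⟩)
  exact (mul_inv_eq_iff_eq_mul.1 this).symm

omit hMn in
/-- An elementary abelian group of order at least `r ^ 2` is not cyclic. -/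
theorem not_isCyclic_of_card {r : ℕ} (hr : r.Prime) {F : Subgroup S}
    (hF : Cfsg.IsElementaryAbelian r F) {K : Subgroup S} (hKF : K ≤ F) (hK : r ^ 2 ≤ Nat.card K) :
    ¬ IsCyclic K := by
  intro hc
  obtain ⟨g, hg⟩ := hc.exists_generator
  have h1 : orderOf g = Nat.card K := orderOf_eq_card_of_forall_mem_zpowers hg
  have h2 : orderOf g ∣ r := orderOf_dvd_of_pow_eq_one (Subtype.ext (hF.2 g (hKF g.2)))
  have h3 := Nat.le_of_dvd hr.pos (h1 ▸ h2)
  have h4 := hr.two_le
  nlinarith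

omit hMn in
/-- Transport back along a conjugation. -/
theorem finish {r : ℕ} (hr : r.Prime) (hr2 : r ≠ 2) {A U W : Subgroup S} (g : S)
    (hA : Cfsg.IsElementaryAbelian r A) (hAc : Nat.card A = r ^ 3)
    (hAU : r ^ 2 ≤ Nat.card (A ⊓ centralizer (U : Set S) : Subgroup S))
    (hWU : W.map (MulAut.conj g).toMonoidHom ≤ U) :
    ∃ (r : ℕ) (F : Subgroup S), r.Prime ∧ r ≠ 2 ∧ Cfsg.IsElementaryAbelian r F ∧ Nat.card ↥F = r ^ 3 ∧
      ¬ IsCyclic ↥(F ⊓ centralizer (W : Set S)) := by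
  haveI := hA.1
  set c := (MulAut.conj g⁻¹).toMonoidHom with hc
  have hF : Cfsg.IsElementaryAbelian r (A.map c) := by
    refine ⟨inferInstance, ?_⟩
    rintro _ ⟨a, ha, rfl⟩
    rw [← map_pow, hA.2 a ha, map_one]
  have hcard : ∀ K : Subgroup S, Nat.card (K.map c) = Nat.card K :=
    fun K => card_map_of_injective (MulAut.conj g⁻¹).injective
  have hle : (A ⊓ centralizer (U : Set S)).map c ≤ A.map c ⊓ centralizer (W : Set S) := by
    rintro _ ⟨a, ha, rfl⟩
    refine ⟨mem_map_of_mem c ha.1, mem_centralizer_iff.2 fun w hw => ?_⟩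
    have h := mem_centralizer_iff.1 ha.2 _ (hWU (mem_map_of_mem _ hw))
    simp only [MulEquiv.coe_toMonoidHom, MulAut.conj_apply, hc] at h ⊢
    calc w * (g⁻¹ * a * g⁻¹⁻¹) = g⁻¹ * ((g * w * g⁻¹) * a) * g := by group
      _ = g⁻¹ * (a * (g * w * g⁻¹)) * g := by rw [h]
      _ = g⁻¹ * a * g⁻¹⁻¹ * w := by group
  exact ⟨r, A.map c, hr, hr2, hF, by rw [hcard, hAc], not_isCyclic_of_card hr hF inf_le_left
    (le_trans (by rw [hcard]; exact hAU) (card_le_of_le hle))⟩

theorem main [Group.IsSolvable S] (hM : Cfsg.IsElementaryAbelian 2 M)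
    (p : ℕ) (hp : p.Prime) (hp2 : p ≠ 2) (E : Subgroup S) (hE : Cfsg.IsElementaryAbelian p E)
    (hE3 : Nat.card ↥E = p ^ 3) (Q : Subgroup S) (hQc : IsCyclic ↥Q) (hQ3 : IsPGroup 3 ↥Q)
    (hQ1 : ∀ x ∈ Q, x ^ 3 ∈ centralizer (M : Set S)) (hQM : Nat.card ↥⁅Q, M⁆ = 4) :
    ∃ (r : ℕ) (F : Subgroup S), r.Prime ∧ r ≠ 2 ∧ Cfsg.IsElementaryAbelian r F ∧ Nat.card ↥F = r ^ 3 ∧
      ¬ IsCyclic ↥(F ⊓ centralizer ((⁅Q, M⁆ : Subgroup S) : Set S)) := by
  haveI : Fact p.Prime := ⟨hp⟩
  haveI : Fact (Nat.Prime 3) := ⟨Nat.prime_three⟩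
  haveI : Fact (Nat.Prime 7) := ⟨by norm_num⟩
  obtain ⟨q₀, hq₀⟩ := hQc.exists_generator
  have hQz : Q = zpowers (q₀ : S) := le_antisymm (fun x hx => by
    obtain ⟨i, hi⟩ := Subgroup.mem_zpowers_iff.1 (hq₀ ⟨x, hx⟩)
    exact Subgroup.mem_zpowers_iff.2 ⟨i, by simpa using congrArg Subtype.val hi⟩) (zpowers_le.2 q₀.2)
  obtain ⟨a₀, ha₀⟩ := hQ3 q₀
  have hq3 : (q₀ : S) ^ 3 ^ a₀ = 1 := congrArg Subtype.val ha₀
  have hD : ⁅Q, M⁆ = disp M (q₀ : S) := by
    refine le_antisymm (commutator_le.2 fun x hx m hm => ?_) (disp_le_iff.2 fun m hm =>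
      commutator_mem_commutator q₀.2 hm)
    rw [hQz] at hx
    exact disp_le_of_mem_zpowers hx (commutator_mem_disp x hm)
  rw [hD] at hQM ⊢
  have hord3 : ∀ i, 0 < i → i < 2 → ¬ 2 ^ i ≡ 1 [MOD 3] := by
    intro i h1 h2; interval_cases i; decide
  -- the case of 3-rank three
  by_cases h3 : ∃ E3 : Subgroup S, Cfsg.IsElementaryAbelian 3 E3 ∧ Nat.card E3 = 3 ^ 3
  · obtain ⟨E3, hE3a, hE3c⟩ := h3
    obtain ⟨P, hP⟩ := (show IsPGroup 3 Q from hQ3).exists_le_sylow
    obtain ⟨A, hA, hAc, hAU⟩ := rank_three_tool hM (by norm_num) hord3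
      (fun j hj => by
        by_contra hlt
        exact absurd ((pow_dvd_pow 3 (show 2 ≤ j by omega)).trans hj) (by norm_num [Fin.prod_univ_succ]))
      (fun n hn j hj => by
        by_contra hlt
        have h := (pow_dvd_pow 3 (show 3 ≤ j by omega)).trans hj
        interval_cases n <;> norm_num [Fin.prod_univ_succ] at h)
      hE3a hE3c P (hP q₀.2) (show Nat.card (disp M (q₀ : S)) = 2 ^ 2 from hQM)
    exact finish Nat.prime_three (by norm_num) 1 hA hAc hAU (by
      rw [map_one]; exact (map_id _).le)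
  have h3' : ∀ E3 : Subgroup S, Cfsg.IsElementaryAbelian 3 E3 → Nat.card E3 ≠ 3 ^ 3 :=
    fun E3 h1 h2 => h3 ⟨E3, h1, h2⟩
  have hp3 : p ≠ 3 := by rintro rfl; exact h3' E hE hE3
  have hp5 : 5 ≤ p := by
    have := hp.two_le
    have : p ≠ 4 := fun h => by rw [h] at hp; norm_num at hp
    omega
  -- a Hall subgroup of odd order
  obtain ⟨v, m, hm2, hcard⟩ :=
    Nat.exists_eq_pow_mul_and_not_dvd (Nat.card_pos (α := S)).ne' 2 (by norm_num)
  obtain ⟨H, hHc, hHdom⟩ := H19.hall_exists_dominant m (2 ^ v) (by rw [hcard, mul_comm])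
    (((Nat.Prime.coprime_iff_not_dvd Nat.prime_two).2 hm2).symm.pow_right v)
  have hHodd : Odd (Nat.card H) := by
    rw [hHc]; exact Nat.odd_iff.2 (Nat.two_dvd_ne_zero.1 hm2)
  have hcop : ∀ {r k : ℕ}, r.Prime → r ≠ 2 → (r ^ k).Coprime (2 ^ v) := fun hr hr2 =>
    Nat.Coprime.pow _ _ ((Nat.coprime_primes hr Nat.prime_two).2 hr2)
  obtain ⟨g₁, hg₁⟩ := hHdom E (by rw [hE3]; exact hcop hp hp2)
  obtain ⟨k, hk⟩ := hQ3.exists_card_eq
  obtain ⟨g₂, hg₂⟩ := hHdom Q (by rw [hk]; exact hcop Nat.prime_three (by norm_num))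
  set q := g₂ * (q₀ : S) * g₂⁻¹ with hq
  have hqH : q ∈ H := hg₂ ⟨(q₀ : S), q₀.2, rfl⟩
  set W := disp M q with hW
  have hWconj : (disp M (q₀ : S)).map (MulAut.conj g₂).toMonoidHom = W := (disp_conj g₂ _).symm
  have hWc : Nat.card W = 2 ^ 2 := by rw [hW, hq, card_disp_conj, hQM]; rfl
  have hqa : q ^ 3 ^ a₀ = 1 := by rw [hq, conj_pow, hq3, mul_one, mul_inv_cancel]
  set E₁ := E.map (MulAut.conj g₁).toMonoidHom with hE₁
  have hE₁H : E₁ ≤ H := hg₁
  haveI := hE.1
  have hE₁a : Cfsg.IsElementaryAbelian p E₁ := by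
    refine ⟨inferInstance, ?_⟩
    rintro _ ⟨a, ha, rfl⟩
    rw [← map_pow, hE.2 a ha, map_one]
  have hE₁c : Nat.card E₁ = p ^ 3 := by
    rw [hE₁, card_map_of_injective (MulAut.conj g₁).injective, hE3]
  have hW6 : ¬ p ∣ ∏ i : Fin 2, (2 ^ 2 - 2 ^ (i : ℕ)) := fun h => by
    have h' : p ∣ 6 := by norm_num [Fin.prod_univ_succ] at h; exact h
    have := Nat.le_of_dvd (by norm_num) h'
    interval_cases p <;> first | contradiction | (norm_num at h'; done) | (norm_num at hp; done)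
  by_cases hnorm : ∀ e ∈ E₁, e ∈ normalizer (W : Set S)
  · refine finish hp hp2 g₂ hE₁a hE₁c ?_ hWconj.le
    have : E₁ ≤ centralizer (W : Set S) := fun e he =>
      mem_centralizer_of_prime hM (disp_le q) hWc hW6 (hE₁a.2 e he) (hnorm e he)
    rw [inf_eq_left.2 this, hE₁c]
    exact Nat.pow_le_pow_right hp.pos (by norm_num)
  push Not at hnorm
  obtain ⟨e, he, heW⟩ := hnorm
  have hep : e ^ p = 1 := hE₁a.2 e he
  by_cases hall : ∀ i : ℕ, Commute (modC M q) (modC M (e ^ i * q * (e ^ i)⁻¹))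
  · exact absurd (mem_normalizer_of_modC (rank_two_tool (p := p) (by norm_num) hp3
      (fun h => by omega) h3' hqa hep hall).symm) heW
  push Not at hall
  obtain ⟨i, hi⟩ := hall
  set q' := e ^ i * q * (e ^ i)⁻¹ with hq'
  have hq'H : q' ∈ H :=
    mul_mem (mul_mem (pow_mem (hE₁H he) i) hqH) (inv_mem (pow_mem (hE₁H he) i))
  set W' := disp M q' with hW'
  have hW'c : Nat.card W' = 2 ^ 2 := by rw [hW', hq', card_disp_conj, ← hW, hWc]
  set V := W ⊔ W' with hV
  have hVM : V ≤ M := sup_le (disp_le q) (disp_le q')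
  have hqV : q ∈ stab M V := mem_stab_iff.2 le_sup_left
  have hq'V : q' ∈ stab M V := mem_stab_iff.2 le_sup_right
  obtain ⟨n, hn, hnd⟩ := card_mulAut_sub hM hVM
  have hn4 : n ≤ 4 := by
    have h := card_sup_le hM (disp_le q) (disp_le q')
    rw [← hW, ← hW', hWc, hW'c, ← hV, hn, ← pow_add] at h
    exact (Nat.pow_dvd_pow_iff_le_right (by norm_num)).1 h
  set K := closure ({⟨q, hqV⟩, ⟨q', hq'V⟩} : Set (stab M V)) with hK
  have hKH : K.map (stab M V).subtype ≤ H := by
    rw [hK, MonoidHom.map_closure, closure_le]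
    rintro _ ⟨x, hx, rfl⟩
    rcases hx with rfl | rfl
    exacts [hqH, hq'H]
  set L := K.map (act hVM) with hL
  have hLodd : Odd (Nat.card L) := hHodd.of_dvd_nat
    ((card_map_dvd K (act hVM)).trans (by
      rw [← card_map_of_injective (K := K) (stab M V).subtype_injective]; exact card_dvd_of_le hKH))
  have hL315 : Nat.card L ∣ 315 :=
    (dvd_odd_part (by omega) hLodd ((card_subgroup_dvd_card L).trans hnd)).2 hn4
  have hLbig : Nat.card L ∣ 3 ^ 4 * (5 * (7 ^ 2 * 31)) :=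
    (dvd_odd_part (by omega) hLodd ((card_subgroup_dvd_card L).trans hnd)).1
  haveI : Group.IsSolvable K := inferInstance
  haveI : Group.IsSolvable L := solvable_of_surjective ((act hVM).subgroupMap_surjective K)
  have hqK : (⟨q, hqV⟩ : stab M V) ∈ K := subset_closure (Or.inl rfl)
  have hq'K : (⟨q', hq'V⟩ : stab M V) ∈ K := subset_closure (Or.inr rfl)
  have h7L : 7 ∣ Nat.card L := by
    by_contra h7
    apply hi
    refine modC_commute_of_act hM hVM hHodd hqH hq'H hqV hq'V ?_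
    have h45 : Nat.card L ∣ 45 :=
      (((Nat.Prime.coprime_iff_not_dvd (by norm_num)).2 h7).symm).dvd_of_dvd_mul_left
        (show Nat.card L ∣ 7 * 45 from hL315)
    exact congrArg Subtype.val (commute_of_dvd_45 h45 ⟨_, mem_map_of_mem (act hVM) hqK⟩
      ⟨_, mem_map_of_mem (act hVM) hq'K⟩).eq
  obtain ⟨T7⟩ : Nonempty (Sylow 7 L) := inferInstance
  obtain ⟨hT7n, -⟩ := sylow_normal_of_bound hLbig rfl T7
  have hT7c : Nat.card (T7 : Subgroup L) = 7 := by
    obtain ⟨j, hj⟩ := T7.2.exists_card_eq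
    have h1 : j ≤ 1 := by
      by_contra hlt
      exact absurd ((pow_dvd_pow 7 (show 2 ≤ j by omega)).trans
        (hj ▸ (card_subgroup_dvd_card _).trans hL315)) (by norm_num)
    have h2 : j ≠ 0 := by
      rintro rfl
      exact T7.not_dvd_index (by
        rw [← card_mul_index (T7 : Subgroup L), hj, pow_zero, one_mul] at h7L; exact h7L)
    rw [hj, show j = 1 by omega, pow_one]
  haveI := isCyclic_of_prime_card hT7c
  obtain ⟨τ, hτ⟩ := IsCyclic.exists_generator (α := (T7 : Subgroup L))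
  have hτ7 : orderOf τ = 7 := by rw [orderOf_eq_card_of_forall_mem_zpowers hτ, hT7c]
  obtain ⟨y, hy, hyτ⟩ := mem_map.1 ((τ : L) : L).2
  obtain ⟨k7, ⟨a7, ha7⟩, hk7⟩ := Automizer.exists_qPart (q := 7) (act hVM) y (k := 1)
    (by
      rw [hyτ, pow_one]
      exact congrArg (fun z : (T7 : Subgroup L) => ((z : L) : MulAut V)) (hτ7 ▸ pow_orderOf_eq_one τ))
  set t := ((y ^ k7 : stab M V) : S) with ht
  have htH : t ∈ H := hKH (mem_map_of_mem _ (pow_mem hy k7))
  have htV : t ∈ stab M V := (y ^ k7).2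
  have hta : t ^ 7 ^ a7 = 1 := congrArg Subtype.val ha7
  have hto : Odd (7 ^ a7) := (show Odd 7 by decide).pow
  have hactt : act hVM ⟨t, htV⟩ = ((τ : L) : MulAut V) := hk7.trans hyτ
  set U := disp M t with hU
  have hUV : U ≤ V := mem_stab_iff.1 htV
  have hord7 : ∀ i, 0 < i → i < 3 → ¬ 2 ^ i ≡ 1 [MOD 7] := by
    intro i h1 h2; interval_cases i <;> decide
  have hUc : Nat.card U = 2 ^ 3 := by
    obtain ⟨j, hj4, hj⟩ := (Nat.dvd_prime_pow Nat.prime_two).1 (hn ▸ card_dvd_of_le hUV)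
    have hmod := card_modEq_one (r := 7) hM (by norm_num) hta (le_refl U) (mem_normalizer_disp t)
    have hj0 : j ≠ 0 := by
      rintro rfl
      have hb : U = ⊥ := eq_bot_of_card_eq _ (by rw [hj, pow_zero])
      have h1 : act hVM ⟨t, htV⟩ = 1 := by
        refine MulEquiv.ext fun v => Subtype.ext ?_
        rw [act_apply]
        exact mul_inv_eq_iff_eq_mul.2
          (mem_centralizer_iff.1 (mem_centralizer_of_disp_eq_bot hb) v (hVM v.2)).symm
      rw [hactt] at h1
      have : τ = 1 := Subtype.ext (Subtype.ext h1)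
      rw [this, orderOf_one] at hτ7
      norm_num at hτ7
    rw [hj] at hmod ⊢
    have : j = 3 := by
      have hjle : j ≤ 4 := hj4.trans hn4
      interval_cases j <;> first | rfl | contradiction | (exact absurd hmod (by decide))
    rw [this]
  -- `q` normalises `U`
  have hqU : q ∈ normalizer (U : Set S) := by
    set x : stab M V := ⟨q, hqV⟩ * ⟨t, htV⟩ * ⟨q, hqV⟩⁻¹ with hx
    haveI := hT7n
    have hmem : (⟨_, mem_map_of_mem (act hVM) hqK⟩ : L) * (τ : L) *
        (⟨_, mem_map_of_mem (act hVM) hqK⟩ : L)⁻¹ ∈ (T7 : Subgroup L) := hT7n.conj_mem _ τ.2 _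
    obtain ⟨s, hs⟩ := Subgroup.mem_zpowers_iff.1 (hτ ⟨_, hmem⟩)
    have hs' : act hVM x = act hVM (⟨t, htV⟩ ^ s) := by
      rw [hx, map_zpow, map_mul, map_mul, map_inv, hactt]
      exact (congrArg (fun z : (T7 : Subgroup L) => ((z : L) : MulAut V)) hs).symm
    have hker : act hVM ((⟨t, htV⟩ ^ s)⁻¹ * x) = 1 := by rw [map_mul, map_inv, hs', inv_mul_cancel]
    set z := ((⟨t, htV⟩ : stab M V) ^ s)⁻¹ * x with hz
    have hzH : (z : S) ∈ H :=
      mul_mem (inv_mem (zpow_mem htH s)) (mul_mem (mul_mem hqH htH) (inv_mem hqH))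
    have hzC : (z : S) ∈ centralizer (M : Set S) := mem_centralizer_of_trivial hM z.2
      (commute_of_act_eq_one hVM hker) (hHodd.of_dvd_nat (orderOf_dvd_natCard H hzH))
      (by rw [pow_orderOf_eq_one]; exact one_mem _)
    have hmod : modC M (q * t * q⁻¹) = modC M (t ^ s) := by
      refine (QuotientGroup.eq.2 ?_).symm
      exact hzC
    rw [mem_normalizer_iff_map_conj_eq]
    refine eq_of_le_of_card_ge ?_ (card_map_of_injective (MulAut.conj _).injective).ge
    refine ((disp_conj q t).symm.trans (disp_eq_of_modC hmod)).le.trans ?_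
    exact disp_le_of_mem_zpowers (zpow_mem (mem_zpowers t) s)
  have hWU : W ≤ U := by
    have hqW : q ∈ normalizer (W ⊓ U : Subgroup S) := by
      rw [mem_normalizer_iff]
      intro z
      simp only [mem_inf]
      exact and_congr (mem_normalizer_iff.1 (mem_normalizer_disp q) z) (mem_normalizer_iff.1 hqU z)
    rcases eq_bot_of_invariant (r := 3) hM (by norm_num) hord3 hqa hWc inf_le_left hqW with h | h
    · exfalso
      have hinj : Function.Injective (fun g : W × U => (⟨(g.1 : S) * g.2,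
          mul_mem ((le_sup_left : W ≤ V) g.1.2) (hUV g.2.2)⟩ : V)) := by
        intro a b hab
        exact Subgroup.mul_injective_of_disjoint (disjoint_iff.2 h) (congrArg Subtype.val hab)
      have := Nat.card_le_card_of_injective _ hinj
      rw [Nat.card_prod, hWc, hUc, hn] at this
      have := Nat.pow_le_pow_right (show 0 < 2 by norm_num) hn4
      omega
    · exact inf_eq_left.1 h
  have hWUconj : ∀ g : S, (disp M (q₀ : S)).map (MulAut.conj (g * g₂)).toMonoidHom ≤
      disp M (g * t * g⁻¹) := by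
    intro g
    rw [show (MulAut.conj (g * g₂)).toMonoidHom =
      (MulAut.conj g).toMonoidHom.comp (MulAut.conj g₂).toMonoidHom by ext; simp [mul_assoc],
      ← Subgroup.map_map, hWconj, disp_conj]
    exact map_mono hWU
  -- the case of 7-rank three
  by_cases h7 : ∃ E7 : Subgroup S, Cfsg.IsElementaryAbelian 7 E7 ∧ Nat.card E7 = 7 ^ 3
  · obtain ⟨E7, hE7a, hE7c⟩ := h7
    have htp : IsPGroup 7 (zpowers t) := by
      obtain ⟨j, -, hj⟩ := (Nat.dvd_prime_pow (by norm_num)).1 (orderOf_dvd_of_pow_eq_one hta)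
      exact IsPGroup.of_card (n := j) (by rw [Nat.card_zpowers, hj])
    obtain ⟨P7, hP7⟩ := htp.exists_le_sylow
    obtain ⟨A, hA, hAc, hAU⟩ := rank_three_tool (r := 7) hM (by norm_num) hord7
      (fun j hj => by
        by_contra hlt
        exact absurd ((pow_dvd_pow 7 (show 2 ≤ j by omega)).trans hj) (by norm_num [Fin.prod_univ_succ]))
      (fun n hn j hj => by
        by_contra hlt
        have h := (pow_dvd_pow 7 (show 3 ≤ j by omega)).trans hj
        interval_cases n <;> norm_num [Fin.prod_univ_succ] at h)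
      hE7a hE7c P7 (hP7 (mem_zpowers t)) hUc
    refine finish (by norm_num) (by norm_num) (1 * g₂) hA hAc hAU ?_
    have := hWUconj 1
    simpa using this
  have h7' : ∀ E7 : Subgroup S, Cfsg.IsElementaryAbelian 7 E7 → Nat.card E7 ≠ 7 ^ 3 :=
    fun E7 h1 h2 => h7 ⟨E7, h1, h2⟩
  have hp7 : p ≠ 7 := by rintro rfl; exact h7' E hE hE3
  exfalso
  have heU : e ∉ normalizer (U : Set S) := by
    intro heU
    have hc := mem_centralizer_of_prime hM (disp_le t) hUc (fun h => by
      have h' : p ∣ 2 ^ 3 * (3 * 7) := by norm_num [Fin.prod_univ_succ] at h ⊢; exact h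
      rcases hp.dvd_mul.1 h' with h | h
      · exact hp2 ((Nat.prime_dvd_prime_iff_eq hp Nat.prime_two).1 (hp.dvd_of_dvd_pow h))
      rcases hp.dvd_mul.1 h with h | h
      · exact hp3 ((Nat.prime_dvd_prime_iff_eq hp Nat.prime_three).1 h)
      · exact hp7 ((Nat.prime_dvd_prime_iff_eq hp (by norm_num)).1 h)) hep heU
    exact heW (centralizer_le_normalizer _ (centralizer_le (SetLike.coe_subset_coe.2 hWU) hc))
  refine heU (mem_normalizer_of_modC (rank_two_tool (p := p) (by norm_num) hp7 (fun h => ?_) h7' hta hep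
    fun i => ?_).symm)
  · obtain ⟨h1, h2⟩ := h
    norm_num at h2
    interval_cases p <;> first | (norm_num at h2; done) | (norm_num at hp; done)
  · set t' := e ^ i * t * (e ^ i)⁻¹ with ht'
    have ht'H : t' ∈ H :=
      mul_mem (mul_mem (pow_mem (hE₁H he) i) htH) (inv_mem (pow_mem (hE₁H he) i))
    have ht'a : t' ^ 7 ^ a7 = 1 := by rw [ht', conj_pow, hta, mul_one, mul_inv_cancel]
    set V' := U ⊔ disp M t' with hV'
    have hV'M : V' ≤ M := sup_le (disp_le t) (disp_le t')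
    have h1 : t ∈ stab M V' := mem_stab_iff.2 le_sup_left
    have h2 : t' ∈ stab M V' := mem_stab_iff.2 le_sup_right
    obtain ⟨n', hn', hnd'⟩ := card_mulAut_sub hM hV'M
    have hn6 : n' ≤ 6 := by
      have h := card_sup_le hM (disp_le t) (disp_le t')
      rw [← hU, ht', card_disp_conj, ← hU, hUc, ← ht', ← hV', hn', ← pow_add] at h
      exact (Nat.pow_dvd_pow_iff_le_right (by norm_num)).1 h
    refine modC_commute_of_act hM hV'M hHodd htH ht'H h1 h2 ?_
    set K' := closure ({⟨t, h1⟩, ⟨t', h2⟩} : Set (stab M V')) with hK'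
    have hK'H : K'.map (stab M V').subtype ≤ H := by
      rw [hK', MonoidHom.map_closure, closure_le]
      rintro _ ⟨x, hx, rfl⟩
      rcases hx with rfl | rfl
      exacts [htH, ht'H]
    set L' := K'.map (act hV'M) with hL'
    have hL'odd : Odd (Nat.card L') := hHodd.of_dvd_nat
      ((card_map_dvd K' (act hV'M)).trans (by
        rw [← card_map_of_injective (K := K') (stab M V').subtype_injective]
        exact card_dvd_of_le hK'H))
    haveI : Group.IsSolvable L' := solvable_of_surjective ((act hV'M).subgroupMap_surjective K')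
    have hb := (dvd_odd_part hn6 hL'odd ((card_subgroup_dvd_card L').trans hnd')).1
    obtain ⟨T⟩ : Nonempty (Sylow 7 L') := inferInstance
    obtain ⟨hTn, hTc⟩ := sylow_normal_of_bound hb rfl T
    have key : ∀ x : L', x ^ 7 ^ a7 = 1 → x ∈ (T : Subgroup L') := by
      intro x hx
      haveI := hTn
      have hp' : IsPGroup 7 (zpowers x) := by
        obtain ⟨j, -, hj⟩ := (Nat.dvd_prime_pow (by norm_num)).1 (orderOf_dvd_of_pow_eq_one hx)
        exact IsPGroup.of_card (n := j) (by rw [Nat.card_zpowers, hj])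
      obtain ⟨T', hT'⟩ := hp'.exists_le_sylow
      obtain ⟨c, hc⟩ := MulAction.exists_smul_eq L' T T'
      rw [Sylow.smul_eq_of_normal] at hc
      exact hc ▸ hT' (mem_zpowers x)
    have hm : ∀ (s : stab M V'), s ∈ K' → (s : S) ^ 7 ^ a7 = 1 →
        ∀ hs : act hV'M s ∈ L', (⟨_, hs⟩ : L') ∈ (T : Subgroup L') := fun s _ hs hsm =>
      key _ (Subtype.ext (by
        show act hV'M s ^ 7 ^ a7 = 1
        rw [← map_pow, show s ^ 7 ^ a7 = 1 from Subtype.ext hs, map_one]))
    have hA := hm ⟨t, h1⟩ (subset_closure (Or.inl rfl)) hta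
      (mem_map_of_mem _ (subset_closure (Or.inl rfl)))
    have hB := hm ⟨t', h2⟩ (subset_closure (Or.inr rfl)) ht'a
      (mem_map_of_mem _ (subset_closure (Or.inr rfl)))
    haveI := hTc
    exact congrArg Subtype.val (setLike_mul_comm hA hB)

end Cfsg.Agent.H91.OddOnTwo
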