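import Cfsg.Agent.H91.OddOnTwo.Disp
import Cfsg.Agent.H91.Automizer.Core
import Cfsg.Agent.S0100
import Cfsg.Agent.S0640

/-!
The two tools: normal rank three subgroups fix `[M, t]`, and automorphisms of rank two groups cannot
move it.
-/

set_option autoImplicit false

namespace Cfsg.Agent.H91.OddOnTwo

open Subgroup
open scoped commutatorElement

variable {S : Type*} [Group S] [Finite S] {M : Subgroup S} [hMn : M.Normal]

omit [Finite S] in
/-- The commutators with a fixed element form the subgroup `[M, x]`. -/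
theorem exists_of_mem_disp (hM : Cfsg.IsElementaryAbelian 2 M) {x u : S} (hu : u ∈ disp M x) :
    ∃ m ∈ M, ⁅x, m⁆ = u := by
  haveI := hM.1
  let K : Subgroup S :=
    { carrier := {u | ∃ m ∈ M, ⁅x, m⁆ = u}
      one_mem' := ⟨1, one_mem M, by simp⟩
      mul_mem' := by
        rintro _ _ ⟨a, ha, rfl⟩ ⟨b, hb, rfl⟩
        refine ⟨a * b, mul_mem ha hb, ?_⟩
        have h : a * ⁅x, b⁆ = ⁅x, b⁆ * a := setLike_mul_comm ha (commutator_mem x hb)
        calc ⁅x, a * b⁆ = ⁅x, a⁆ * (a * ⁅x, b⁆ * a⁻¹) := by simp only [commutatorElement_def]; group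
          _ = ⁅x, a⁆ * ⁅x, b⁆ := by rw [h, mul_inv_cancel_right]
      inv_mem' := by
        rintro _ ⟨a, ha, rfl⟩
        refine ⟨a⁻¹, inv_mem ha, ?_⟩
        have h : a * ⁅x, a⁻¹⁆ = ⁅x, a⁻¹⁆ * a := setLike_mul_comm ha (commutator_mem x (inv_mem ha))
        refine eq_inv_of_mul_eq_one_right ?_
        calc ⁅x, a⁆ * ⁅x, a⁻¹⁆ = ⁅x, a⁆ * (a * ⁅x, a⁻¹⁆ * a⁻¹) := by rw [h, mul_inv_cancel_right]
          _ = ⁅x, a * a⁻¹⁆ := by simp only [commutatorElement_def]; group
          _ = 1 := by simp }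
  have : disp M x ≤ K := disp_le_iff.2 fun m hm => ⟨m, hm, rfl⟩
  exact this hu

/-- An element of odd order fixes no nontrivial element of `[M, x]`. -/
theorem fixed_eq_one (hM : Cfsg.IsElementaryAbelian 2 M) {x u : S} {n : ℕ} (hn : Odd n) (hxn : x ^ n = 1)
    (hu : u ∈ disp M x) (hc : Commute x u) : u = 1 := by
  obtain ⟨m, hm, rfl⟩ := exists_of_mem_disp hM hu
  exact eq_one_of_fixed hM hm hn (by rw [hxn]; exact one_mem _) hc

/-- An invariant subgroup of `[M, x]` has order `≡ 1` modulo `r`. -/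
theorem card_modEq_one (hM : Cfsg.IsElementaryAbelian 2 M) {r : ℕ} [Fact r.Prime] (hr : r ≠ 2) {x : S}
    {a : ℕ} (hxa : x ^ r ^ a = 1) {Z : Subgroup S} (hZ : Z ≤ disp M x)
    (hxZ : x ∈ normalizer (Z : Set S)) : Nat.card Z ≡ 1 [MOD r] := by
  letI : MulAction (zpowers x) Z :=
    { smul := fun t u => ⟨(t : S) * u * (t : S)⁻¹,
        (mem_normalizer_iff.1 ((zpowers_le.2 hxZ) t.2) _).1 u.2⟩
      one_smul := fun u => Subtype.ext (show (1 : S) * u * (1 : S)⁻¹ = u by group)
      mul_smul := fun a b u => Subtype.ext (show (↑a * ↑b : S) * u * (↑a * ↑b : S)⁻¹ =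
        ↑a * (↑b * u * (↑b : S)⁻¹) * (↑a : S)⁻¹ by group) }
  have hp : IsPGroup r (zpowers x) := by
    obtain ⟨k, -, hk⟩ := (Nat.dvd_prime_pow Fact.out).1 (orderOf_dvd_of_pow_eq_one hxa)
    exact IsPGroup.of_card (by rw [Nat.card_zpowers, hk])
  have hfix : ∀ u : Z, u ∈ MulAction.fixedPoints (zpowers x) Z → u = 1 := by
    intro u hu
    have h : x * (u : S) * x⁻¹ = u := congrArg Subtype.val (hu ⟨x, mem_zpowers x⟩)
    exact Subtype.ext (fixed_eq_one hM (((Fact.out : r.Prime).odd_of_ne_two hr).pow) hxa (hZ u.2)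
      (mul_inv_eq_iff_eq_mul.1 h))
  have h1 : Nat.card (MulAction.fixedPoints (zpowers x) Z) = 1 := by
    refine Nat.card_eq_one_iff_unique.2 ⟨⟨fun a b => Subtype.ext ((hfix a a.2).trans (hfix b b.2).symm)⟩,
      ⟨⟨1, fun t => Subtype.ext (show (t : S) * 1 * (t : S)⁻¹ = 1 by group)⟩⟩⟩
  have := hp.card_modEq_card_fixedPoints Z
  rwa [h1] at this

/-- `[M, x]` has no proper invariant subgroups when its order is the least possible. -/
theorem eq_bot_of_invariant (hM : Cfsg.IsElementaryAbelian 2 M) {r d : ℕ} [Fact r.Prime] (hr : r ≠ 2)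
    (hord : ∀ i, 0 < i → i < d → ¬ 2 ^ i ≡ 1 [MOD r]) {x : S}
    {a : ℕ} (hxa : x ^ r ^ a = 1) (hd : Nat.card (disp M x) = 2 ^ d) {Z : Subgroup S}
    (hZ : Z ≤ disp M x) (hxZ : x ∈ normalizer (Z : Set S)) : Z = ⊥ ∨ Z = disp M x := by
  obtain ⟨i, hid, hi⟩ := (Nat.dvd_prime_pow Nat.prime_two).1 (hd ▸ card_dvd_of_le hZ)
  rcases Nat.eq_zero_or_pos i with h0 | hpos
  · exact Or.inl (eq_bot_of_card_eq _ (by rw [hi, h0, pow_zero]))
  rcases Nat.eq_or_lt_of_le hid with rfl | hlt
  · exact Or.inr (eq_of_le_of_card_ge hZ (by rw [hi, hd]))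
  · exact absurd (hi ▸ card_modEq_one hM hr hxa hZ hxZ) (hord i hpos hlt)

omit [Finite S] in
/-- Elements commuting modulo `C(M)` normalise each other's `[M, x]`. -/
theorem mem_normalizer_of_modC {x y : S} (h : Commute (modC M x) (modC M y)) :
    y ∈ normalizer (disp M x : Set S) := by
  rw [mem_normalizer_iff_map_conj_eq]
  refine Eq.trans ?_ (disp_eq_of_modC (x := y * x * y⁻¹) ?_)
  · exact (disp_conj y x).symm
  · rw [map_mul, map_mul, map_inv, ← h.eq, mul_inv_cancel_right]

omit hMn in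
/-- A rank three Sylow subgroup has a normal elementary abelian subgroup of order `r ^ 3`. -/
theorem exists_normal_cube {r : ℕ} [Fact r.Prime] (hr : r ≠ 2) {E : Subgroup S}
    (hE : Cfsg.IsElementaryAbelian r E) (hEc : Nat.card E = r ^ 3) (P : Sylow r S) :
    ∃ A : Subgroup S, A ≤ (P : Subgroup S) ∧ (P : Subgroup S) ≤ normalizer (A : Set S) ∧
      Cfsg.IsElementaryAbelian r A ∧ Nat.card A = r ^ 3 := by
  obtain ⟨P', hP'⟩ := (IsPGroup.of_card hEc).exists_le_sylow
  obtain ⟨g, hg⟩ := MulAction.exists_smul_eq S P' P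
  have hle : E.map (MulAut.conj g).toMonoidHom ≤ (P : Subgroup S) := by
    rw [← hg, Sylow.coe_subgroup_smul]
    exact map_mono hP'
  set E' := (E.map (MulAut.conj g).toMonoidHom).subgroupOf (P : Subgroup S) with hE'
  have hE'c : Nat.card E' = r ^ 3 := by
    rw [hE', Nat.card_congr (subgroupOfEquivOfLe hle).toEquiv,
      card_map_of_injective (MulAut.conj g).injective, hEc]
  by_contra hno
  haveI := hE.1
  have h2 := Cfsg.Agent.S0100.result hr P.2 (fun A hA hAc hAe hA3 => hno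
    ⟨A.map (P : Subgroup S).subtype, map_subtype_le A, ?_, ⟨?_, ?_⟩, ?_⟩) E' ?_ ?_
  · rw [hE'c] at h2
    exact absurd ((Nat.pow_le_pow_iff_right (Fact.out : r.Prime).one_lt).1 h2) (by norm_num)
  · have := le_normalizer_map (H := A) (P : Subgroup S).subtype
    rw [normalizer_eq_top_iff.2 hA, ← MonoidHom.range_eq_map, range_subtype] at this
    exact this
  · haveI := hAc; infer_instance
  · rintro _ ⟨a, ha, rfl⟩
    rw [← map_pow, hAe a ha, map_one]
  · rw [card_map_of_injective (P : Subgroup S).subtype_injective, hA3]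
  · refine ⟨⟨fun a b => Subtype.ext (Subtype.ext ?_)⟩⟩
    obtain ⟨u, hu, hue⟩ := mem_map.1 (mem_subgroupOf.1 a.2)
    obtain ⟨v, hv, hve⟩ := mem_map.1 (mem_subgroupOf.1 b.2)
    show ((a : (P : Subgroup S)) : S) * ((b : (P : Subgroup S)) : S) =
      ((b : (P : Subgroup S)) : S) * ((a : (P : Subgroup S)) : S)
    rw [← hue, ← hve, ← map_mul, ← map_mul, setLike_mul_comm hu hv]
  · intro a ha
    obtain ⟨u, hu, hue⟩ := mem_map.1 (mem_subgroupOf.1 ha)
    refine Subtype.ext ?_
    rw [SubmonoidClass.coe_pow, ← hue, ← map_pow, hE.2 u hu, map_one, OneMemClass.coe_one]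

/-- A normal rank three subgroup of a Sylow subgroup containing `t` meets `C([M, t])` in rank two. -/
theorem rank_three_tool (hM : Cfsg.IsElementaryAbelian 2 M) {r d : ℕ} [Fact r.Prime] (hr : r ≠ 2)
    (hord : ∀ i, 0 < i → i < d → ¬ 2 ^ i ≡ 1 [MOD r])
    (h1 : ∀ j, r ^ j ∣ ∏ i : Fin d, (2 ^ d - 2 ^ (i : ℕ)) → j ≤ 1)
    (h2 : ∀ n, n ≤ d + d → ∀ j, r ^ j ∣ ∏ i : Fin n, (2 ^ n - 2 ^ (i : ℕ)) → j ≤ 2)
    {E : Subgroup S} (hE : Cfsg.IsElementaryAbelian r E) (hEc : Nat.card E = r ^ 3)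
    (P : Sylow r S) {t : S} (ht : t ∈ (P : Subgroup S)) (hd : Nat.card (disp M t) = 2 ^ d) :
    ∃ A : Subgroup S, Cfsg.IsElementaryAbelian r A ∧ Nat.card A = r ^ 3 ∧
      r ^ 2 ≤ Nat.card (A ⊓ centralizer (disp M t : Set S) : Subgroup S) := by
  obtain ⟨A, hAP, hPA, hA, hAc⟩ := exists_normal_cube hr hE hEc P
  refine ⟨A, hA, hAc, ?_⟩
  have hodd : Odd (Nat.card (P : Subgroup S)) := by
    obtain ⟨k, hk⟩ := P.2.exists_card_eq
    rw [hk]
    exact ((Fact.out : r.Prime).odd_of_ne_two hr).pow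
  obtain ⟨a₀, ha₀⟩ := P.2 ⟨t, ht⟩
  have hta : t ^ r ^ a₀ = 1 := congrArg Subtype.val ha₀
  have hto : Odd (r ^ a₀) := ((Fact.out : r.Prime).odd_of_ne_two hr).pow
  set U := disp M t with hU
  have hUM : U ≤ M := disp_le t
  have hnorm : A ≤ normalizer (U : Set S) := by
    intro f hf
    have hfP := hAP hf
    by_contra hfU
    set t' := f * t * f⁻¹ with ht'
    set t'' := f * t' * f⁻¹ with ht''
    have ht'P : t' ∈ (P : Subgroup S) := mul_mem (mul_mem hfP ht) (inv_mem hfP)
    set U' := disp M t' with hU'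
    have hU'c : Nat.card U' = 2 ^ d := by rw [hU', ht', card_disp_conj, hd]
    have hta' : t' ^ r ^ a₀ = 1 := by rw [ht', conj_pow, hta, mul_one, mul_inv_cancel]
    have hne : U' ≠ U := by
      intro e
      apply hfU
      rw [mem_normalizer_iff_map_conj_eq]
      exact (disp_conj f t).symm.trans e
    -- `t` and `t'` commute modulo `C(M)`
    set V := U ⊔ U' with hV
    have hVM : V ≤ M := sup_le hUM (disp_le t')
    have htV : t ∈ stab M V := mem_stab_iff.2 le_sup_left
    have ht'V : t' ∈ stab M V := mem_stab_iff.2 le_sup_right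
    have hcomm : Commute (modC M t) (modC M t') := by
      refine modC_commute_of_act hM hVM hodd ht ht'P htV ht'V ?_
      set Y := (((P : Subgroup S).subgroupOf (stab M V)).map (act hVM)) with hY
      have hYp : IsPGroup r Y :=
        (P.2.comap_of_injective _ (stab M V).subtype_injective).map _
      obtain ⟨j, hj⟩ := hYp.exists_card_eq
      obtain ⟨n, hn, hnd⟩ := card_mulAut_sub hM hVM
      have hn2 : n ≤ d + d := by
        have h := card_sup_le hM hUM (disp_le t')
        rw [hd, hU'c, ← hV, hn, ← pow_add] at h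
        exact (Nat.pow_dvd_pow_iff_le_right (by norm_num)).1 h
      have hj2 : j ≤ 2 := h2 n hn2 j (hj ▸ (card_subgroup_dvd_card Y).trans hnd)
      haveI : IsMulCommutative Y := by
        interval_cases j
        · haveI := (Nat.card_eq_one_iff_unique.1 (hj.trans (pow_zero _))).1
          exact ⟨⟨fun a b => Subsingleton.elim _ _⟩⟩
        · haveI := isCyclic_of_prime_card (p := r) (by simpa using hj)
          infer_instance
        · exact IsPGroup.isMulCommutative_of_card_eq_prime_sq hj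
      exact setLike_mul_comm (S := Subgroup (MulAut V)) (s := Y)
        (mem_map_of_mem (act hVM) (show (⟨t, htV⟩ : stab M V) ∈ _ from ht))
        (mem_map_of_mem (act hVM) (show (⟨t', ht'V⟩ : stab M V) ∈ _ from ht'P))
    have htU' : t ∈ normalizer (U' : Set S) := mem_normalizer_of_modC hcomm.symm
    have ht'U : t' ∈ normalizer (U : Set S) := mem_normalizer_of_modC hcomm
    have hinf : U ⊓ U' = ⊥ := by
      refine (eq_bot_of_invariant hM hr hord hta hd inf_le_left ?_).resolve_right fun e => hne ?_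
      · rw [mem_normalizer_iff]
        intro y
        have e1 := mem_normalizer_iff.1 (mem_normalizer_disp (M := M) t) y
        have e2 := mem_normalizer_iff.1 htU' y
        simp only [mem_inf]
        exact and_congr e1 e2
      · refine (eq_of_le_of_card_ge (inf_eq_left.1 e) ?_).symm
        rw [hd, hU'c]
    have hfix : ∀ x : S, x ∈ normalizer (U : Set S) → x ∈ stab M U' → ∀ u ∈ U, Commute x u := by
      intro x hx hxs u hu
      have h : ⁅x, u⁆ ∈ U ⊓ U' := by
        refine ⟨?_, hxs u (hUM hu)⟩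
        rw [commutatorElement_def]
        exact U.mul_mem ((mem_normalizer_iff.1 hx u).1 hu) (U.inv_mem hu)
      rw [hinf, mem_bot, commutatorElement_eq_one_iff_mul_comm] at h
      exact h
    have ht'fix : ∀ u ∈ U, Commute t' u := hfix t' ht'U (mem_stab_disp t')
    have htfix : ∀ u ∈ U', Commute t u := by
      intro u hu
      have h : ⁅t, u⁆ ∈ U ⊓ U' := by
        refine ⟨mem_stab_disp t u (disp_le t' hu), ?_⟩
        rw [commutatorElement_def]
        exact U'.mul_mem ((mem_normalizer_iff.1 htU' u).1 hu) (U'.inv_mem hu)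
      rw [hinf, mem_bot, commutatorElement_eq_one_iff_mul_comm] at h
      exact h
    -- the relation forced by commutativity of `A`
    have hc : t⁻¹ * t' ∈ A := by
      have : t⁻¹ * f * t ∈ A := by
        simpa using (mem_normalizer_iff.1 (hPA (inv_mem ht)) f).1 hf
      rw [show t⁻¹ * t' = (t⁻¹ * f * t) * f⁻¹ by rw [ht']; group]
      exact mul_mem this (inv_mem hf)
    haveI := hA.1
    have hrel : t'' = t' * t⁻¹ * t' := by
      have h : f * (t⁻¹ * t') = t⁻¹ * t' * f := setLike_mul_comm hf hc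
      calc t'' = f * t' * f⁻¹ := rfl
        _ = (f * t * f⁻¹) * (f * (t⁻¹ * t') * f⁻¹) := by group
        _ = t' * (t⁻¹ * t' * f * f⁻¹) := by rw [h]
        _ = t' * t⁻¹ * t' := by group
    -- `[M, t'']` contains both
    have hsurj : ∀ (x : S) (W : Subgroup S), W ≤ M → (∀ w ∈ W, t'' * w * t''⁻¹ = x * w * x⁻¹) →
        x ∈ normalizer (W : Set S) → (∀ w ∈ W, Commute x w → w = 1) → W ≤ disp M t'' := by
      intro x W hWM hW hxW hfp w hw
      haveI := hM.1
      let g : W → W := fun v => ⟨x * v * x⁻¹ * (v : S)⁻¹,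
        mul_mem ((mem_normalizer_iff.1 hxW _).1 v.2) (inv_mem v.2)⟩
      have hg : Function.Injective g := by
        intro v v' hvv
        have hvv' : x * v * x⁻¹ * (v : S)⁻¹ = x * v' * x⁻¹ * (v' : S)⁻¹ := congrArg Subtype.val hvv
        have hcm : Commute x ((v : S) * (v' : S)⁻¹) := by
          refine mul_inv_eq_iff_eq_mul.1 ?_
          have hm1 : x * (v' : S) * x⁻¹ ∈ W := (mem_normalizer_iff.1 hxW _).1 v'.2
          have e : (v : S) * (v' : S)⁻¹ = (x * v * x⁻¹) * (x * v' * x⁻¹)⁻¹ := by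
            have h3 : x * v * x⁻¹ = x * v' * x⁻¹ * ((v' : S)⁻¹ * (v : S)) := by
              rw [← mul_assoc, ← hvv', inv_mul_cancel_right]
            rw [h3]
            have h4 : (x * v' * x⁻¹) * ((v' : S)⁻¹ * (v : S)) =
                ((v' : S)⁻¹ * (v : S)) * (x * v' * x⁻¹) :=
              setLike_mul_comm (hWM hm1) (mul_mem (inv_mem (hWM v'.2)) (hWM v.2))
            rw [h4, mul_inv_cancel_right]
            exact setLike_mul_comm (hWM v.2) (inv_mem (hWM v'.2))
          conv_rhs => rw [e]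
          group
        exact Subtype.ext (mul_inv_eq_one.1 (hfp _ (mul_mem v.2 (inv_mem v'.2)) hcm))
      obtain ⟨v, hv⟩ := (Finite.injective_iff_surjective.1 hg) ⟨w, hw⟩
      have hwv : x * v * x⁻¹ * (v : S)⁻¹ = w := congrArg Subtype.val hv
      rw [← hwv, ← hW v v.2]
      exact commutator_mem_disp t'' (hWM v.2)
    have h1' : U ≤ disp M t'' := by
      refine hsurj t⁻¹ U hUM (fun w hw => ?_) (inv_mem (mem_normalizer_disp t)) (fun w hw hcw => ?_)
      · have hm : t⁻¹ * w * t ∈ U := by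
          simpa using (mem_normalizer_iff.1 (inv_mem (mem_normalizer_disp t)) w).1 hw
        rw [hrel]
        calc t' * t⁻¹ * t' * w * (t' * t⁻¹ * t')⁻¹
            = t' * (t⁻¹ * (t' * w) * t'⁻¹ * t) * t'⁻¹ := by group
          _ = t' * (t⁻¹ * (w * t') * t'⁻¹ * t) * t'⁻¹ := by rw [(ht'fix w hw).eq]
          _ = (t' * (t⁻¹ * w * t)) * t'⁻¹ := by group
          _ = t⁻¹ * w * t⁻¹⁻¹ := by rw [(ht'fix _ hm).eq, mul_inv_cancel_right, inv_inv]
      · exact fixed_eq_one hM hto hta hw (by simpa using hcw.inv_left)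
    have h2' : U' ≤ disp M t'' := by
      refine hsurj (t' * t') U' (disp_le t') (fun w hw => ?_)
        (mul_mem (mem_normalizer_disp t') (mem_normalizer_disp t')) (fun w hw hcw => ?_)
      · have hm : t' * w * t'⁻¹ ∈ U' := (mem_normalizer_iff.1 (mem_normalizer_disp t') w).1 hw
        rw [hrel]
        calc t' * t⁻¹ * t' * w * (t' * t⁻¹ * t')⁻¹
            = t' * (t⁻¹ * (t' * w * t'⁻¹) * t) * t'⁻¹ := by group
          _ = t' * (t' * w * t'⁻¹) * t'⁻¹ := by rw [(htfix _ hm).inv_left.eq, inv_mul_cancel_right]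
          _ = t' * t' * w * (t' * t')⁻¹ := by group
      · obtain ⟨k, hk⟩ := hto
        have hpw : (t' * t') ^ (k + 1) = t' := by
          rw [← pow_two, ← pow_mul, show 2 * (k + 1) = r ^ a₀ + 1 by omega, pow_succ, hta', one_mul]
        refine fixed_eq_one hM (((Fact.out : r.Prime).odd_of_ne_two hr).pow) hta' hw ?_
        rw [← hpw]; exact hcw.pow_left _
    have h3 : Nat.card (disp M t'') = 2 ^ d := by rw [ht'', card_disp_conj, ← hU', hU'c]
    have e1 : U = disp M t'' := eq_of_le_of_card_ge h1' (by rw [h3, hd])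
    have e2 : U' = disp M t'' := eq_of_le_of_card_ge h2' (by rw [h3, hU'c])
    exact hne (e2.trans e1.symm)
  -- the kernel on `[M, t]`
  set ψ : ↥A →* MulAut U := U.normalizerMonoidHom.comp (inclusion hnorm) with hψ
  have hker : ψ.ker ≤ (centralizer (U : Set S)).subgroupOf A := by
    intro x hx
    refine mem_centralizer_iff.2 fun u hu => ?_
    have := congrArg Subtype.val (DFunLike.congr_fun (MonoidHom.mem_ker.1 hx) ⟨u, hu⟩)
    exact (mul_inv_eq_iff_eq_mul.1 this).symm
  obtain ⟨n, hn, hnd⟩ := card_mulAut_sub hM hUM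
  obtain rfl : n = d := Nat.pow_right_injective le_rfl (hn.symm.trans hd)
  obtain ⟨j, -, hj⟩ := (Nat.dvd_prime_pow (Fact.out : r.Prime)).1 (hAc ▸ card_range_dvd ψ)
  have hj1 : j ≤ 1 := h1 j (hj ▸ (card_subgroup_dvd_card _).trans hnd)
  have hmul : Nat.card ψ.ker * r ^ j = r ^ 3 := by rw [← hj, ← index_ker, card_mul_index, hAc]
  have hle : Nat.card ψ.ker ≤ Nat.card (A ⊓ centralizer (U : Set S) : Subgroup S) := by
    refine Nat.le_of_dvd Nat.card_pos ((card_dvd_of_le hker).trans ?_)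
    rw [inf_comm, ← subgroupOf_map_subtype, card_map_of_injective A.subtype_injective]
  refine le_trans ?_ hle
  have hrp := (Fact.out : r.Prime).pos
  interval_cases j
  · rw [pow_zero, mul_one] at hmul
    rw [hmul]; exact Nat.pow_le_pow_right hrp (by norm_num)
  · rw [pow_one, pow_succ r 2] at hmul
    exact (Nat.eq_of_mul_eq_mul_right hrp hmul).ge

/-- Automorphisms of rank two groups cannot move `[M, x]` when its conjugates commute. -/
theorem rank_two_tool {r p : ℕ} [Fact r.Prime] [Fact p.Prime] (hr : r ≠ 2)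
    (hpr : p ≠ r) (hno : ¬ (p < r ∧ p ∣ r ^ 2 - 1))
    (hrank : ∀ E : Subgroup S, Cfsg.IsElementaryAbelian r E → Nat.card E ≠ r ^ 3)
    {x e : S} {a : ℕ} (hxa : x ^ r ^ a = 1) (hep : e ^ p = 1)
    (hcomm : ∀ i : ℕ, Commute (modC M x) (modC M (e ^ i * x * (e ^ i)⁻¹))) :
    Commute (modC M e) (modC M x) := by
  set μ := modC M with hμ
  set gens : Set (S ⧸ centralizer (M : Set S)) := Set.range fun i : ℕ => μ (e ^ i * x * (e ^ i)⁻¹)
    with hgens
  set Ab := closure gens with hAb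
  have hpair : ∀ u ∈ gens, ∀ v ∈ gens, u * v = v * u := by
    have key : ∀ i k : ℕ, Commute (μ (e ^ i * x * (e ^ i)⁻¹)) (μ (e ^ (i + k) * x * (e ^ (i + k))⁻¹)) := by
      intro i k
      have h := (hcomm k).map (MulAut.conj (μ (e ^ i))).toMonoidHom
      simp only [MulEquiv.coe_toMonoidHom, MulAut.conj_apply] at h
      rw [← map_inv, ← map_mul, ← map_mul, ← map_mul, ← map_mul] at h
      rwa [show e ^ i * (e ^ k * x * (e ^ k)⁻¹) * (e ^ i)⁻¹ = e ^ (i + k) * x * (e ^ (i + k))⁻¹ by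
        rw [pow_add]; group] at h
    rintro _ ⟨i, rfl⟩ _ ⟨k, rfl⟩
    rcases le_total i k with h | h
    · have := key i (k - i)
      rw [Nat.add_sub_cancel' h] at this
      exact this.eq
    · have := key k (i - k)
      rw [Nat.add_sub_cancel' h] at this
      exact this.eq.symm
  haveI hAbc : IsMulCommutative Ab := isMulCommutative_closure hpair
  have hpow : ∀ y ∈ Ab, y ^ r ^ a = 1 := by
    intro y hy
    induction hy using closure_induction with
    | mem y hy =>
      obtain ⟨i, rfl⟩ := hy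
      show μ (e ^ i * x * (e ^ i)⁻¹) ^ r ^ a = 1
      rw [← map_pow, conj_pow, hxa, mul_one, mul_inv_cancel, map_one]
    | one => exact one_pow _
    | mul u v hu hv ihu ihv =>
      rw [(show Commute u v from setLike_mul_comm hu hv).mul_pow, ihu, ihv, one_mul]
    | inv u hu ihu => rw [inv_pow, ihu, inv_one]
  have hAbp : IsPGroup r Ab := fun y => ⟨a, Subtype.ext (hpow y y.2)⟩
  set A := Ab.comap μ with hA
  set NA := normalizer (A : Set S) with hNA
  have heA : e ∈ NA := by
    rw [hNA, hA, ← comap_normalizer_eq_of_surjective _ (QuotientGroup.mk'_surjective _)]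
    show μ e ∈ normalizer (Ab : Set (S ⧸ centralizer (M : Set S)))
    rw [mem_normalizer_iff_map_conj_eq]
    refine eq_of_le_of_card_ge ?_ (card_map_of_injective (MulAut.conj _).injective).ge
    rw [hAb, MonoidHom.map_closure, closure_le]
    rintro _ ⟨_, ⟨i, rfl⟩, rfl⟩
    refine subset_closure ⟨i + 1, ?_⟩
    show μ (e ^ (i + 1) * x * (e ^ (i + 1))⁻¹) = μ e * μ (e ^ i * x * (e ^ i)⁻¹) * (μ e)⁻¹
    rw [← map_inv, ← map_mul, ← map_mul, pow_succ']
    congr 1
    group
  set A' := A.subgroupOf NA with hA'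
  haveI : A'.Normal := normal_in_normalizer
  obtain ⟨P₀⟩ : Nonempty (Sylow r A') := inferInstance
  set P₁ := (P₀ : Subgroup A').map A'.subtype with hP₁
  have hfr := Sylow.normalizer_sup_eq_top P₀
  obtain ⟨n, hn, c, hc, hnc⟩ := mem_sup_of_normal_right.1
    (show (⟨e, heA⟩ : NA) ∈ normalizer (P₁ : Set NA) ⊔ A' by rw [hfr]; exact mem_top _)
  set f := QuotientGroup.mk' A' with hf
  have hfn : f n = f ⟨e, heA⟩ := by
    rw [← hnc, map_mul, show f c = 1 from (QuotientGroup.eq_one_iff c).2 hc, mul_one]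
  obtain ⟨k, ⟨j, hj⟩, hk⟩ := Automizer.exists_qPart (q := p) f n (k := 1)
    (by rw [pow_one, hfn, ← map_pow, show (⟨e, heA⟩ : NA) ^ p = 1 from Subtype.ext hep, map_one])
  -- it centralises the Sylow subgroup
  have hP₁p : IsPGroup r P₁ := P₀.2.map _
  set ψ := P₁.normalizerMonoidHom with hψ
  have hψ1 : ψ ⟨n ^ k, pow_mem hn k⟩ = 1 := by
    by_contra hne
    have hpw : ψ ⟨n ^ k, pow_mem hn k⟩ ^ p ^ j = 1 := by
      rw [← map_pow, show (⟨n ^ k, pow_mem hn k⟩ : normalizer (P₁ : Set NA)) ^ p ^ j = 1 from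
        Subtype.ext hj, map_one]
    obtain ⟨i, -, hi⟩ := (Nat.dvd_prime_pow (Fact.out : p.Prime)).1 (orderOf_dvd_of_pow_eq_one hpw)
    have hi0 : i ≠ 0 := by rintro rfl; exact hne (orderOf_eq_one_iff.1 (by rw [hi, pow_zero]))
    have hdvd : p ∣ Nat.card (MulAut P₁) :=
      (dvd_pow_self p hi0).trans (hi ▸ orderOf_dvd_natCard _)
    have hrk : Cfsg.PRankLE r 2 P₁ := by
      intro B hB hBe
      obtain ⟨b, hb⟩ := (show IsPGroup r B from hP₁p.to_subgroup B).exists_card_eq
      by_contra hlt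
      rw [not_le, hb, Nat.pow_lt_pow_iff_right (Fact.out : r.Prime).one_lt] at hlt
      obtain ⟨B', hB'⟩ := Sylow.exists_subgroup_card_pow_prime r
        (show r ^ 3 ∣ Nat.card B from hb ▸ pow_dvd_pow r hlt)
      refine hrank (((B'.map B.subtype).map P₁.subtype).map NA.subtype) ⟨inferInstance, ?_⟩ ?_
      · rintro _ ⟨_, ⟨_, ⟨y, hy, rfl⟩, rfl⟩, rfl⟩
        rw [← map_pow, ← map_pow, show (B.subtype y) ^ r = 1 from hBe _ y.2, map_one, map_one]
      · rw [card_map_of_injective NA.subtype_injective, card_map_of_injective P₁.subtype_injective,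
          card_map_of_injective B.subtype_injective, hB']
    obtain ⟨h1, h2⟩ := Cfsg.Agent.S0640.result hr hP₁p hrk p Fact.out hpr hdvd
    exact hno ⟨h2, h1⟩
  set e' : S := ((n ^ k : NA) : S) with he'
  have hcent : ∀ y ∈ P₁, Commute e' (y : S) := by
    intro y hy
    have := congrArg (fun z : P₁ => ((z : NA) : S)) (DFunLike.congr_fun hψ1 ⟨y, hy⟩)
    exact mul_inv_eq_iff_eq_mul.1 this
  -- the images of the Sylow subgroup exhaust `Ab`
  set μN := μ.comp NA.subtype with hμN
  have himg : P₁.map μN = A'.map μN := by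
    refine le_antisymm (map_mono (map_subtype_le _)) (relIndex_eq_one.1 ?_)
    have hsub : A'.map μN ≤ Ab := by
      rintro _ ⟨y, hy, rfl⟩; exact hy
    obtain ⟨m, hm⟩ := (hAbp.to_le hsub).exists_card_eq
    refine Nat.eq_one_of_dvd_coprimes ?_ (relIndex_dvd_card _ _ |>.trans hm.dvd)
      (relIndex_map_map (f := μN) P₁ A' ▸ (relIndex_dvd_of_le_left _ le_sup_left).trans ?_)
      (b := P₁.relIndex A')
    · refine Nat.Coprime.pow_left m ((Nat.Prime.coprime_iff_not_dvd Fact.out).2 ?_)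
      show ¬ r ∣ (((P₀ : Subgroup A').map A'.subtype).subgroupOf A').index
      rw [subgroupOf, comap_map_eq_self_of_injective A'.subtype_injective]
      exact P₀.not_dvd_index
    · rw [show A' ⊔ μN.ker = A' from sup_eq_left.2 fun y hy => show μ y ∈ Ab from (MonoidHom.mem_ker.1 hy).symm ▸ one_mem Ab]
  have hcAb : ∀ y ∈ A', Commute (μ e') (μN y) := by
    intro y hy
    obtain ⟨z, hz, hze⟩ := (himg.ge) (mem_map_of_mem μN hy)
    rw [← hze]
    exact (hcent z hz).map μ
  have hea : (n ^ k)⁻¹ * ⟨e, heA⟩ ∈ A' := by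
    rw [← QuotientGroup.eq]
    exact hk.trans hfn
  have hx : (⟨x, ?_⟩ : NA) ∈ A' := show μ x ∈ Ab from subset_closure ⟨0, by simp⟩
  swap
  · exact le_normalizer (show μ x ∈ Ab from subset_closure ⟨0, by simp⟩)
  have h1 : Commute (μ e') (μ x) := hcAb _ hx
  have h2 : Commute (μN ((n ^ k)⁻¹ * ⟨e, heA⟩)) (μ x) :=
    setLike_mul_comm (S := Subgroup (S ⧸ centralizer (M : Set S))) (s := Ab) hea hx
  have h3 := h1.mul_left h2
  rwa [hμN, MonoidHom.comp_apply, ← map_mul, show e' * NA.subtype ((n ^ k)⁻¹ * ⟨e, heA⟩) = e by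
    rw [map_mul, map_inv, he']; exact mul_inv_cancel_left _ _] at h3

end Cfsg.Agent.H91.OddOnTwo
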